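import Mathlib
import Cfsg.Agent.CharBasics.Central
import Cfsg.Agent.PLocalBasics.ClassThree

/-!
Groups with a normal `p`-subgroup `P` containing all commutators and a normal subgroup `K` of `P` such that `P ∖ K`
is a single class and only elements of `P` are central modulo `K`.
-/

set_option autoImplicit false
set_option linter.unusedSectionVars false
set_option linter.style.haveILetI false

open scoped commutatorElement

namespace CfsgLib.OneClassDerived

variable {Γ : Type*} [Group Γ] [Finite Γ]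

/-- If all stabilizers on a conjugation-invariant set are equal, their index divides its size. -/
theorem index_dvd_ncard {M H : Type*} [Group M] [Finite M] [Group H] [Finite H] (f : M →* H) (X : Set H)
    (hinv : ∀ m, ∀ x ∈ X, f m * x * (f m)⁻¹ ∈ X) (N : Subgroup M)
    (h : ∀ x ∈ X, ∀ m, f m * x * (f m)⁻¹ = x ↔ m ∈ N) : N.index ∣ X.ncard := by
  classical
  letI : MulAction M H :=
    { smul := fun m x => f m * x * (f m)⁻¹
      one_smul := fun x => by show f 1 * x * (f 1)⁻¹ = x; simp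
      mul_smul := fun a b x => by
        show f (a * b) * x * (f (a * b))⁻¹ = f a * (f b * x * (f b)⁻¹) * (f a)⁻¹
        simp [mul_assoc] }
  let S : SubMulAction M H := ⟨X, fun m x hx => hinv m x hx⟩
  haveI := Fintype.ofFinite (MulAction.orbitRel.Quotient M S)
  rw [← Nat.card_coe_set_eq, show Nat.card X = Nat.card S from rfl,
    Nat.card_congr (MulAction.selfEquivSigmaOrbits M S), Nat.card_sigma]
  refine Finset.dvd_sum fun o _ => ?_
  have hst : MulAction.stabilizer M o.out = N := by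
    ext m
    rw [SubMulAction.stabilizer_of_subMul, MulAction.mem_stabilizer_iff]
    exact h _ o.out.2 m
  rw [Nat.card_coe_set_eq, ← MulAction.index_stabilizer, hst]

theorem card_mul_rel {A B : Subgroup Γ} (h : A ≤ B) : Nat.card A * A.relIndex B = Nat.card B := by
  have := Subgroup.relIndex_mul_relIndex (⊥ : Subgroup Γ) A B bot_le h
  simpa [Subgroup.relIndex_bot_left] using this

/-- A nontrivial normal `p`-subgroup has a nontrivial element centralized by a given `p`-subgroup. -/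
theorem exists_fixed {p : ℕ} [hp : Fact p.Prime] {S : Subgroup Γ} (hS : IsPGroup p S) (N : Subgroup Γ) [N.Normal]
    (hN : IsPGroup p N) (hN1 : N ≠ ⊥) : ∃ z ∈ N, z ≠ 1 ∧ ∀ s ∈ S, s * z = z * s := by
  letI : MulAction S N := MulAction.compHom N ((MulAut.conjNormal (H := N)).comp S.subtype)
  have hd : p ∣ Nat.card N := by
    obtain ⟨n, hn⟩ := IsPGroup.iff_card.1 hN
    rcases Nat.eq_zero_or_pos n with rfl | h0
    · exact absurd (N.eq_bot_of_card_eq (by simpa using hn)) hN1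
    · exact hn ▸ dvd_pow_self p h0.ne'
  obtain ⟨z, hz, hz1⟩ := hS.exists_fixed_point_of_prime_dvd_card_of_fixed_point N hd (a := (1 : N))
    (fun s => map_one (MulAut.conjNormal (s : Γ)))
  refine ⟨z, z.2, fun e => hz1 (Subtype.ext e.symm), fun s hs => ?_⟩
  have h1 := congrArg Subtype.val (hz ⟨s, hs⟩)
  change s * (z : Γ) * s⁻¹ = z at h1
  exact mul_inv_eq_iff_eq_mul.1 h1

/-- Hypotheses. -/
structure Data (p : ℕ) (P K : Subgroup Γ) : Prop where
  pP : IsPGroup p P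
  le : K ≤ P
  comm : ∀ x y : Γ, ⁅x, y⁆ ∈ P
  pcomm : ∀ x ∈ P, ∀ y ∈ P, ⁅x, y⁆ ∈ K
  pow : ∀ x ∈ P, x ^ p ∈ K
  ne : ¬ P ≤ K
  conj : ∀ x ∈ P, x ∉ K → ∀ y ∈ P, y ∉ K → IsConj x y
  central : ∀ c : Γ, (∀ x : Γ, ⁅c, x⁆ ∈ K) → c ∈ P
  noncomm : ∃ x y : Γ, ⁅x, y⁆ ∉ K

variable {p : ℕ} {P K : Subgroup Γ}

/-- The centralizer of an element of `P ∖ K`. -/
theorem card_centralizer (hD : Data p P K) (hPn : P.Normal) (hKn : K.Normal) {x : Γ} (hx : x ∈ P) (hxK : x ∉ K) :
    Nat.card (Subgroup.centralizer ({x} : Set Γ)) * ((K.relIndex P - 1) * Nat.card K) = Nat.card Γ := by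
  have h1 : Nat.card {y : Γ // IsConj x y} = ((P : Set Γ) \ (K : Set Γ)).ncard := by
    rw [← Nat.card_coe_set_eq]
    refine Nat.card_congr (Equiv.subtypeEquivRight fun y => ⟨fun h => ?_, fun h => hD.conj x hx hxK y h.1 h.2⟩)
    obtain ⟨c, rfl⟩ := isConj_iff.1 h
    refine ⟨hPn.conj_mem x hx c, fun hk => hxK ?_⟩
    have := hKn.conj_mem _ hk c⁻¹
    simpa [mul_assoc] using this
  have h2 : ((P : Set Γ) \ (K : Set Γ)).ncard = (K.relIndex P - 1) * Nat.card K := by
    rw [Set.ncard_diff (fun a ha => hD.le ha) (Set.toFinite _), ← Nat.card_coe_set_eq (P : Set Γ),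
      ← Nat.card_coe_set_eq (K : Set Γ)]
    change Nat.card P - Nat.card K = _
    rw [Nat.sub_one_mul, mul_comm, card_mul_rel hD.le]
  rw [← h2, ← h1, CfsgLib.CharBasics.card_conjClass, Subgroup.card_mul_index]

/-- When `K` has index two in `P` and is central, `P` has index at most four. -/
theorem index_le_four_of_central (hD : Data p P K) (hPn : P.Normal) (hKn : K.Normal) (h2 : K.relIndex P = 2)
    (hKc : K ≤ Subgroup.center Γ) (hK1 : K ≠ ⊥) : P.index ≤ 4 := by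
  classical
  have hprod : ∀ a ∈ P, a ∉ K → ∀ b ∈ P, b ∉ K → a * b ∈ K := by
    intro a ha haK b hb hbK
    have h := Subgroup.mul_mem_iff_of_index_two (H := K.subgroupOf P) h2 (a := ⟨a, ha⟩) (b := ⟨b, hb⟩)
    exact Subgroup.mem_subgroupOf.1 (h.2 (iff_of_false (fun h => haK h) (fun h => hbK h)))
  have hcen : ∀ a ∈ P, ∀ x : Γ, ⁅x, a⁆ ∈ K := by
    intro a ha x
    rw [commutatorElement_def]
    by_cases hk : a ∈ K
    · exact mul_mem (hKn.conj_mem a hk x) (inv_mem hk)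
    · refine hprod _ (hPn.conj_mem a ha x) (fun h => hk ?_) _ (inv_mem ha) (fun h => hk (inv_mem_iff.1 h))
      have := hKn.conj_mem _ h x⁻¹
      simpa [mul_assoc] using this
  have hcP : ∀ a ∈ P, ∀ x : Γ, (x * a * x⁻¹) * a⁻¹ ∈ K := fun a ha x => hcen a ha x
  -- a bilinear rule
  have hmul : ∀ x y z : Γ, ⁅x, z⁆ ∈ K → (⁅x * y, z⁆ ∈ K ↔ ⁅y, z⁆ ∈ K) := by
    intro x y z hxz
    have e : ⁅x * y, z⁆ = x * ⁅y, z⁆ * x⁻¹ * ⁅x, z⁆ := by simp only [commutatorElement_def]; group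
    rw [e, mul_mem_cancel_right hxz]
    exact ⟨fun h => by simpa [mul_assoc] using hKn.conj_mem _ h x⁻¹, fun h => hKn.conj_mem _ h x⟩
  let C : Γ → Subgroup Γ := fun z =>
    { carrier := {x | ⁅x, z⁆ ∈ K}
      one_mem' := by simp [one_mem]
      mul_mem' := fun {a b} ha hb => (hmul a b z ha).2 hb
      inv_mem' := fun {a} ha => (hmul a a⁻¹ z ha).1 (by simp [one_mem]) }
  -- the commutator map into `P / K`
  have hindex : ∀ (X : Subgroup Γ) (z : Γ), ∀ a ∈ X, a ∉ C z → ∀ b ∈ X, b ∉ C z → a * b ∈ C z := by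
    intro X z a _ ha b _ hb
    show ⁅a * b, z⁆ ∈ K
    rw [show ⁅a * b, z⁆ = a * ⁅b, z⁆ * a⁻¹ * ⁅a, z⁆ by simp only [commutatorElement_def]; group]
    refine hprod _ (hPn.conj_mem _ (hD.comm b z) a) (fun h => hb ?_) _ (hD.comm a z) ha
    have := hKn.conj_mem _ h a⁻¹
    show ⁅b, z⁆ ∈ K
    simpa [mul_assoc] using this
  have hrel : ∀ (X : Subgroup Γ) (z : Γ), (C z).relIndex X ≤ 2 := by
    intro X z
    by_cases h : X ≤ C z
    · rw [Subgroup.relIndex_eq_one.2 h]; omega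
    · obtain ⟨a, ha, haC⟩ := SetLike.not_le_iff_exists.1 h
      refine le_of_eq ((Subgroup.index_eq_two_iff).2 ⟨⟨a, ha⟩, fun b => ?_⟩)
      by_cases hb : (b : Γ) ∈ C z
      · exact Or.inr ⟨hb, fun h' => haC (by
          have h'' : (b : Γ) * a ∈ C z := h'
          exact ((C z).mul_mem_cancel_left hb).1 h'')⟩
      · exact Or.inl ⟨hindex X z b b.2 hb a ha haC, hb⟩
  obtain ⟨g, hgP, hgK⟩ := SetLike.not_le_iff_exists.1 hD.ne
  obtain ⟨⟨z, hz⟩, hz'⟩ := Subgroup.ne_bot_iff_exists_ne_one.1 hK1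
  have hz1 : z ≠ 1 := fun e => hz' (Subtype.ext e)
  obtain ⟨w, hw⟩ := isConj_iff.1 (hD.conj g hgP hgK (g * z) (mul_mem hgP (hD.le hz))
    (fun h => hgK ((K.mul_mem_cancel_right hz).1 h)))
  have hWW : ∀ a ∈ C w, ∀ b ∈ C w, ⁅a, b⁆ ∈ K := by
    intro a ha b hb
    by_contra hab
    have hfix : w * ⁅a, b⁆ * w⁻¹ = ⁅a, b⁆ := by
      have hk : ∀ a ∈ C w, ∃ k ∈ Subgroup.center Γ, w * a * w⁻¹ = a * k := by
        intro a ha
        refine ⟨a⁻¹ * (w * a * w⁻¹), hKc ?_, by group⟩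
        have h1 : (⁅a, w⁆)⁻¹ ∈ K := inv_mem ha
        have h2 := hKn.conj_mem _ h1 a⁻¹
        rwa [show a⁻¹ * (⁅a, w⁆)⁻¹ * a⁻¹⁻¹ = a⁻¹ * (w * a * w⁻¹) by simp only [commutatorElement_def]; group] at h2
      obtain ⟨k, hk1, hk2⟩ := hk a ha
      obtain ⟨l, hl1, hl2⟩ := hk b hb
      rw [← MulAut.conj_apply, map_commutatorElement, MulAut.conj_apply, MulAut.conj_apply, hk2, hl2]
      have hkc := Subgroup.mem_center_iff.1 hk1
      have hlc := Subgroup.mem_center_iff.1 hl1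
      simp only [commutatorElement_def, mul_inv_rev]
      calc a * k * (b * l) * (k⁻¹ * a⁻¹) * (l⁻¹ * b⁻¹) = a * (k * (b * l)) * k⁻¹ * a⁻¹ * (l⁻¹ * b⁻¹) := by group
        _ = a * ((b * l) * k) * k⁻¹ * a⁻¹ * (l⁻¹ * b⁻¹) := by rw [hkc (b * l)]
        _ = a * b * (l * a⁻¹) * l⁻¹ * b⁻¹ := by group
        _ = a * b * (a⁻¹ * l) * l⁻¹ * b⁻¹ := by rw [hlc a⁻¹]
        _ = _ := by group
    have hgc : g⁻¹ * ⁅a, b⁆ ∈ K := hprod _ (inv_mem hgP) (fun h => hgK (inv_mem_iff.1 h)) _ (hD.comm a b) hab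
    have hkc := Subgroup.mem_center_iff.1 (hKc hgc) w
    have hfix' : w * g * w⁻¹ = g := by
      have h1 : w * g * w⁻¹ * (g⁻¹ * ⁅a, b⁆) = g * (g⁻¹ * ⁅a, b⁆) := by
        calc w * g * w⁻¹ * (g⁻¹ * ⁅a, b⁆) = w * g * w⁻¹ * (g⁻¹ * ⁅a, b⁆ * w) * w⁻¹ := by group
          _ = w * g * w⁻¹ * (w * (g⁻¹ * ⁅a, b⁆)) * w⁻¹ := by rw [hkc]
          _ = w * ⁅a, b⁆ * w⁻¹ := by group
          _ = g * (g⁻¹ * ⁅a, b⁆) := by rw [hfix]; group
      exact mul_right_cancel h1
    rw [hfix'] at hw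
    exact hz1 (mul_left_cancel (hw.symm.trans (mul_one g).symm))
  obtain ⟨u, hu⟩ : ∃ u, u ∉ C w := by
    by_contra h
    push Not at h
    obtain ⟨x, y, hxy⟩ := hD.noncomm
    exact hxy (hWW x (h x) y (h y))
  have hker : C w ⊓ C u ≤ P := by
    intro c hc
    refine hD.central c fun x => ?_
    let D : Subgroup Γ :=
      { carrier := {x | ⁅c, x⁆ ∈ K}
        one_mem' := by simp [one_mem]
        mul_mem' := fun {a b} ha hb => by
          show ⁅c, a * b⁆ ∈ K
          rw [show ⁅c, a * b⁆ = ⁅c, a⁆ * (a * ⁅c, b⁆ * a⁻¹) by simp only [commutatorElement_def]; group]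
          exact mul_mem ha (hKn.conj_mem _ hb a)
        inv_mem' := fun {a} ha => by
          show ⁅c, a⁻¹⁆ ∈ K
          rw [show ⁅c, a⁻¹⁆ = a⁻¹ * (⁅c, a⁆)⁻¹ * a⁻¹⁻¹ by simp only [commutatorElement_def]; group]
          exact hKn.conj_mem _ (inv_mem ha) _ }
    have hWD : C w ≤ D := fun a ha => hWW c hc.1 a ha
    by_cases hx : x ∈ C w
    · exact hWD hx
    · have h1 : x * u⁻¹ ∈ C w := hindex ⊤ w x trivial hx u⁻¹ trivial (fun h => hu (inv_mem_iff.1 h))
      have h2 := D.mul_mem (hWD h1) (show u ∈ D from hc.2)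
      rwa [inv_mul_cancel_right] at h2
  have h3 : (C w ⊓ C u).index ≤ 4 := by
    rw [← Subgroup.relIndex_mul_index (inf_le_left : C w ⊓ C u ≤ C w), Subgroup.inf_relIndex_left]
    calc (C u).relIndex (C w) * (C w).index ≤ 2 * 2 := Nat.mul_le_mul (hrel _ _) (by
          rw [← Subgroup.relIndex_top_right]; exact hrel _ _)
      _ = 4 := rfl
  exact le_trans (Nat.le_of_dvd (Nat.pos_of_ne_zero Subgroup.index_ne_zero_of_finite)
    (Subgroup.index_dvd_of_le hker)) h3

/-- If `K` is nontrivial of index two in `P`, some element of `P ∖ K` has order dividing four. -/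
theorem exists_pow_four (hD : Data 2 P K) (hPn : P.Normal) (hKn : K.Normal) (h2 : K.relIndex P = 2) (hK1 : K ≠ ⊥) :
    ∃ y ∈ P, y ∉ K ∧ y ^ 4 = 1 := by
  classical
  haveI : Fact (Nat.Prime 2) := ⟨Nat.prime_two⟩
  have hprod : ∀ a ∈ P, a ∉ K → ∀ b ∈ P, b ∉ K → a * b ∈ K := by
    intro a ha haK b hb hbK
    have h := Subgroup.mul_mem_iff_of_index_two (H := K.subgroupOf P) h2 (a := ⟨a, ha⟩) (b := ⟨b, hb⟩)
    exact Subgroup.mem_subgroupOf.1 (h.2 (iff_of_false (fun h => haK h) (fun h => hbK h)))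
  have hcen : ∀ a ∈ P, ∀ x : Γ, x * a * x⁻¹ * a⁻¹ ∈ K := by
    intro a ha x
    by_cases hk : a ∈ K
    · exact mul_mem (hKn.conj_mem a hk x) (inv_mem hk)
    · refine hprod _ (hPn.conj_mem a ha x) (fun h => hk ?_) _ (inv_mem ha) (fun h => hk (inv_mem_iff.1 h))
      have := hKn.conj_mem _ h x⁻¹
      simpa [mul_assoc] using this
  have hsq : ∀ x : Γ, x ^ 2 ∈ P := by
    intro x
    refine hD.central _ fun h => ?_
    have e : ⁅x ^ 2, h⁆ = x * ⁅x, h⁆ * x⁻¹ * (⁅x, h⁆)⁻¹ * (⁅x, h⁆ ^ 2) := by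
      simp only [commutatorElement_def, pow_two]; group
    rw [e]
    exact mul_mem (hcen _ (hD.comm x h) x) (hD.pow _ (hD.comm x h))
  have hΓ : IsPGroup 2 Γ := by
    intro x
    obtain ⟨k, hk⟩ := hD.pP ⟨x ^ 2, hsq x⟩
    refine ⟨k + 1, ?_⟩
    have h1 := congrArg Subtype.val hk
    rw [SubgroupClass.coe_pow, Subgroup.coe_one] at h1
    rw [pow_succ', pow_mul]
    exact h1
  -- a quotient in which `K` is central
  set T := ⁅K, (⊤ : Subgroup Γ)⁆ with hT
  have hTK : T ≤ K := Subgroup.commutator_le_left K ⊤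
  have hTne : ¬ K ≤ T := by
    intro hle
    haveI := hΓ.isNilpotent
    obtain ⟨n, hn⟩ := Subgroup.nilpotent_iff_lowerCentralSeries.1 (inferInstance : Group.IsNilpotent Γ)
    have hall : ∀ m, K ≤ (⊤ : Subgroup Γ).lowerCentralSeries m := by
      intro m
      induction m with
      | zero => exact le_top
      | succ m ih =>
        rw [Subgroup.lowerCentralSeries_succ]
        exact hle.trans (Subgroup.commutator_mono ih le_rfl)
    exact hK1 (le_bot_iff.1 (hn ▸ hall n))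
  set f := QuotientGroup.mk' T with hf
  have hfs : Function.Surjective f := QuotientGroup.mk'_surjective T
  have hfm : ∀ {x : Γ}, f x ∈ K.map f ↔ x ∈ K := fun {x} => by
    rw [← Subgroup.mem_comap, Subgroup.comap_map_eq, QuotientGroup.ker_mk', sup_of_le_left hTK]
  have hfP : ∀ {x : Γ}, f x ∈ P.map f ↔ x ∈ P := fun {x} => by
    rw [← Subgroup.mem_comap, Subgroup.comap_map_eq, QuotientGroup.ker_mk', sup_of_le_left (hTK.trans hD.le)]
  have hD' : Data 2 (P.map f) (K.map f) :=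
    { pP := hD.pP.map f
      le := Subgroup.map_mono hD.le
      comm := fun x y => by
        obtain ⟨a, rfl⟩ := hfs x; obtain ⟨b, rfl⟩ := hfs y
        rw [← map_commutatorElement]; exact hfP.2 (hD.comm a b)
      pcomm := by
        rintro _ ⟨a, ha, rfl⟩ _ ⟨b, hb, rfl⟩
        rw [← map_commutatorElement]; exact hfm.2 (hD.pcomm a ha b hb)
      pow := by
        rintro _ ⟨a, ha, rfl⟩
        rw [← map_pow]; exact hfm.2 (hD.pow a ha)
      ne := fun h => hD.ne fun x hx => hfm.1 (h ⟨x, hx, rfl⟩)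
      conj := by
        rintro _ ⟨a, ha, rfl⟩ hak _ ⟨b, hb, rfl⟩ hbk
        exact f.map_isConj (hD.conj a ha (fun h => hak (hfm.2 h)) b hb (fun h => hbk (hfm.2 h)))
      central := fun c hc => by
        obtain ⟨a, rfl⟩ := hfs c
        exact hfP.2 (hD.central a fun x => hfm.1 (by rw [map_commutatorElement]; exact hc (f x)))
      noncomm := by
        obtain ⟨x, y, h⟩ := hD.noncomm
        exact ⟨f x, f y, fun h' => h (hfm.1 (by rwa [map_commutatorElement]))⟩ }
  have hKc : K.map f ≤ Subgroup.center (Γ ⧸ T) := by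
    rintro _ ⟨k, hk, rfl⟩
    rw [Subgroup.mem_center_iff]
    intro y
    obtain ⟨x, rfl⟩ := hfs y
    have h1 : f ⁅k, x⁆ = 1 := (QuotientGroup.eq_one_iff _).2 (Subgroup.commutator_mem_commutator hk (Subgroup.mem_top x))
    rw [map_commutatorElement, commutatorElement_eq_one_iff_mul_comm] at h1
    exact h1.symm
  have hrel : (K.map f).relIndex (P.map f) = 2 := by
    rw [Subgroup.relIndex_map_map, QuotientGroup.ker_mk', sup_of_le_left hTK, sup_of_le_left (hTK.trans hD.le), h2]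
  have h4 := index_le_four_of_central hD' (hPn.map f hfs) (hKn.map f hfs) hrel hKc (fun e => hTne (by
    have := (Subgroup.map_eq_bot_iff K).1 e
    rwa [QuotientGroup.ker_mk'] at this))
  rw [Subgroup.index_map_eq P hfs (by rw [QuotientGroup.ker_mk']; exact hTK.trans hD.le)] at h4
  -- a square outside `K`
  obtain ⟨x, hx⟩ : ∃ x : Γ, x ^ 2 ∉ K := by
    by_contra h
    push Not at h
    obtain ⟨a, b, hab⟩ := hD.noncomm
    apply hab
    have e : ⁅a, b⁆ = a ^ 2 * (a⁻¹ * b) ^ 2 * ((b⁻¹) ^ 2) := by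
      simp only [commutatorElement_def, pow_two]; group
    rw [e]
    exact mul_mem (mul_mem (h a) (h _)) (h _)
  refine ⟨x ^ 2, hsq x, hx, ?_⟩
  set C := Subgroup.centralizer ({x ^ 2} : Set Γ) with hC
  have hcard : Nat.card C ≤ 8 := by
    have h := card_centralizer hD hPn hKn (hsq x) hx
    rw [h2, Nat.add_one_sub_one, one_mul, ← P.card_mul_index, ← card_mul_rel hD.le, h2,
      mul_comm (Nat.card C), mul_assoc] at h
    have := Nat.eq_of_mul_eq_mul_left Nat.card_pos h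
    rw [this]; omega
  have hxC : x ∈ C := Subgroup.mem_centralizer_singleton_iff.2 (Commute.self_pow x 2).eq
  obtain ⟨n, hn⟩ := IsPGroup.iff_orderOf.1 hΓ x
  have hle : 2 ^ n ≤ 8 := hn ▸ (Nat.le_of_dvd Nat.card_pos (C.orderOf_dvd_natCard hxC)).trans hcard
  have hn3 : n ≤ 3 := by
    by_contra h
    have := Nat.pow_le_pow_right (show 2 > 0 by norm_num) (show 4 ≤ n by omega)
    omega
  rw [← pow_mul, show 2 * 4 = 2 ^ 3 from rfl, ← orderOf_dvd_iff_pow_eq_one, hn]
  exact pow_dvd_pow 2 hn3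

/-- For `|P : K| > 2`, only elements of `P` centralize an element of `P ∖ K` modulo `K`. -/
theorem centralizes_mod (hD : Data p P K) (hPn : P.Normal) (hKn : K.Normal) (hq : 2 < K.relIndex P)
    {y : Γ} (hy : y ∈ P) (hyK : y ∉ K) {n : Γ} (hn : ⁅n, y⁆ ∈ K) : n ∈ P := by
  classical
  set f := QuotientGroup.mk' K with hf
  have hfs : Function.Surjective f := QuotientGroup.mk'_surjective K
  have hfz : ∀ {x : Γ}, f x = 1 ↔ x ∈ K := fun {x} => QuotientGroup.eq_one_iff x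
  set A := P.map f with hA
  have hfP : ∀ {x : Γ}, f x ∈ A ↔ x ∈ P := fun {x} => by
    rw [← Subgroup.mem_comap, Subgroup.comap_map_eq, QuotientGroup.ker_mk', sup_of_le_left hD.le]
  haveI hAn : A.Normal := hPn.map f hfs
  have hAc : ∀ a ∈ A, ∀ b ∈ A, a * b = b * a := by
    rintro _ ⟨a, ha, rfl⟩ _ ⟨b, hb, rfl⟩
    rw [← commutatorElement_eq_one_iff_mul_comm, ← map_commutatorElement, hfz]
    exact hD.pcomm a ha b hb
  have hcomm : ∀ a b : Γ ⧸ K, ⁅a, b⁆ ∈ A := fun a b => by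
    obtain ⟨x, rfl⟩ := hfs a; obtain ⟨z, rfl⟩ := hfs b
    rw [← map_commutatorElement]; exact hfP.2 (hD.comm x z)
  have hconj : ∀ a ∈ A, a ≠ 1 → ∀ b ∈ A, b ≠ 1 → IsConj a b := by
    rintro _ ⟨a, ha, rfl⟩ ha1 _ ⟨b, hb, rfl⟩ hb1
    exact f.map_isConj (hD.conj a ha (fun h => ha1 (hfz.2 h)) b hb (fun h => hb1 (hfz.2 h)))
  have hcentral : ∀ c : Γ ⧸ K, (∀ x : Γ ⧸ K, ⁅c, x⁆ = 1) → c ∈ A := fun c hc => by
    obtain ⟨a, rfl⟩ := hfs c
    exact hfP.2 (hD.central a fun x => hfz.1 (by rw [map_commutatorElement]; exact hc (f x)))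
  set E := Subgroup.centralizer (A : Set (Γ ⧸ K)) with hE
  -- centralizing one element is centralizing all
  have honeall : ∀ m : Γ ⧸ K, ∀ a ∈ A, a ≠ 1 → m * a = a * m → m ∈ E := by
    intro m a ha ha1 hma
    refine Subgroup.mem_centralizer_iff.2 fun b hb => ?_
    by_cases hb1 : b = 1
    · simp [hb1]
    obtain ⟨h, rfl⟩ := isConj_iff.1 (hconj a ha ha1 b hb hb1)
    have hα : m⁻¹ * (h⁻¹ * m * h) ∈ A := by
      have := hcomm m⁻¹ h⁻¹
      rwa [commutatorElement_def, inv_inv, inv_inv, show m⁻¹ * h⁻¹ * m * h = m⁻¹ * (h⁻¹ * m * h) by group] at this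
    have h1 : h⁻¹ * m * h * a = a * (h⁻¹ * m * h) := by
      calc h⁻¹ * m * h * a = m * (m⁻¹ * (h⁻¹ * m * h) * a) := by group
        _ = m * (a * (m⁻¹ * (h⁻¹ * m * h))) := by rw [hAc _ hα a ha]
        _ = m * a * (m⁻¹ * (h⁻¹ * m * h)) := by group
        _ = _ := by rw [hma]; group
    calc h * a * h⁻¹ * m = h * (a * (h⁻¹ * m * h)) * h⁻¹ := by group
      _ = h * (h⁻¹ * m * h * a) * h⁻¹ := by rw [h1]
      _ = m * (h * a * h⁻¹) := by group
  have hAE : A ≤ E := fun a ha => Subgroup.mem_centralizer_iff.2 fun b hb => hAc b hb a ha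
  have hy1 : f y ≠ 1 := fun h => hyK (hfz.1 h)
  obtain ⟨h, hh⟩ : ∃ h, h ∉ E := by
    by_contra hall
    push Not at hall
    have hA2 : Nat.card A ≤ 2 := by
      have : (A : Set (Γ ⧸ K)) ⊆ {1, f y} := by
        intro b hb
        by_cases hb1 : b = 1
        · exact Or.inl hb1
        obtain ⟨c, hc⟩ := isConj_iff.1 (hconj (f y) ⟨y, hy, rfl⟩ hy1 b hb hb1)
        refine Or.inr ?_
        rw [← hc, ← Subgroup.mem_centralizer_iff.1 (hall c) (f y) ⟨y, hy, rfl⟩, mul_inv_cancel_right]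
        rfl
      calc Nat.card A = (A : Set (Γ ⧸ K)).ncard := (Nat.card_coe_set_eq _)
        _ ≤ ({1, f y} : Set (Γ ⧸ K)).ncard := Set.ncard_le_ncard this
        _ ≤ 2 := (Set.ncard_insert_le _ _).trans (by rw [Set.ncard_singleton])
    have h2 : Nat.card A = K.relIndex P := by
      rw [hA, ← Subgroup.relIndex_bot_left, ← Subgroup.map_eq_bot_iff K |>.2 (by rw [QuotientGroup.ker_mk']),
        Subgroup.relIndex_map_map, QuotientGroup.ker_mk', sup_idem, sup_of_le_left hD.le]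
    omega
  -- `E` is abelian
  have hconjh : ∀ a : Γ ⧸ K, ∃ α ∈ A, h * a * h⁻¹ = α * a :=
    fun a => ⟨⁅h, a⁆, hcomm h a, by rw [commutatorElement_def]; group⟩
  have hfixh : ∀ a ∈ A, h * a * h⁻¹ = a → a = 1 := fun a ha he => by
    by_contra h1
    exact hh (honeall h a ha h1 (mul_inv_eq_iff_eq_mul.1 he))
  have hEab : ∀ a ∈ E, ∀ b ∈ E, a * b = b * a := by
    intro a ha b hb
    obtain ⟨α, hα, hα'⟩ := hconjh a
    obtain ⟨β, hβ, hβ'⟩ := hconjh b
    rw [← commutatorElement_eq_one_iff_mul_comm]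
    refine hfixh _ (hcomm a b) ?_
    rw [← MulAut.conj_apply, map_commutatorElement, MulAut.conj_apply, MulAut.conj_apply, hα', hβ']
    have ea := Subgroup.mem_centralizer_iff.1 ha
    have eb := Subgroup.mem_centralizer_iff.1 hb
    simp only [commutatorElement_def, mul_inv_rev]
    calc α * a * (β * b) * (a⁻¹ * α⁻¹) * (b⁻¹ * β⁻¹) = α * ((a * β) * b) * a⁻¹ * (α⁻¹ * b⁻¹) * β⁻¹ := by group
      _ = α * ((β * a) * b) * a⁻¹ * (b⁻¹ * α⁻¹) * β⁻¹ := by
        rw [← ea β hβ, show α⁻¹ * b⁻¹ = b⁻¹ * α⁻¹ by rw [← mul_inv_rev, ← mul_inv_rev, eb α hα]]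
      _ = α * β * (⁅a, b⁆ * α⁻¹) * β⁻¹ := by rw [commutatorElement_def]; group
      _ = α * β * (α⁻¹ * ⁅a, b⁆) * β⁻¹ := by rw [hAc _ (hcomm a b) _ (inv_mem hα)]
      _ = (α * β) * α⁻¹ * (⁅a, b⁆ * β⁻¹) := by group
      _ = (β * α) * α⁻¹ * (β⁻¹ * ⁅a, b⁆) := by rw [hAc α hα β hβ, hAc _ (hcomm a b) _ (inv_mem hβ)]
      _ = _ := by rw [commutatorElement_def]; group
  let φ : A → A := fun a => ⟨⁅(a : Γ ⧸ K), h⁆, hcomm _ _⟩
  have hφ : Function.Injective φ := by
    intro a b e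
    have e' : (a : Γ ⧸ K) * h * (a : Γ ⧸ K)⁻¹ * h⁻¹ = (b : Γ ⧸ K) * h * (b : Γ ⧸ K)⁻¹ * h⁻¹ :=
      congrArg Subtype.val e
    refine Subtype.ext (inv_mul_eq_one.1 (hfixh _ (mul_mem (inv_mem a.2) b.2) ?_))
    have e'' := mul_right_cancel e'
    calc h * ((a : Γ ⧸ K)⁻¹ * b) * h⁻¹ = (a : Γ ⧸ K)⁻¹ * ((a : Γ ⧸ K) * h * (a : Γ ⧸ K)⁻¹) * b * h⁻¹ := by group
      _ = _ := by rw [e'']; group
  have hEA : E ≤ A := by
    intro a ha
    obtain ⟨⟨α, hα⟩, e⟩ := Finite.injective_iff_surjective.1 hφ ⟨⁅a, h⁆, hcomm _ _⟩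
    have e' : α * h * α⁻¹ * h⁻¹ = a * h * a⁻¹ * h⁻¹ := congrArg Subtype.val e
    set c := α⁻¹ * a with hc
    have hcE : c ∈ E := mul_mem (inv_mem (hAE hα)) ha
    have hch : c * h = h * c := by
      have e'' := mul_right_cancel e'
      calc c * h = α⁻¹ * (a * h * a⁻¹) * a := by rw [hc]; group
        _ = _ := by rw [← e'', hc]; group
    have hcA : c ∈ A := by
      clear_value c
      refine hcentral c fun k => hfixh _ (hcomm c k) ?_
      obtain ⟨δ, hδ, hδ'⟩ := hconjh k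
      rw [← MulAut.conj_apply, map_commutatorElement, MulAut.conj_apply, MulAut.conj_apply, ← hch,
        mul_inv_cancel_right, hδ', commutatorElement_def, commutatorElement_def, mul_inv_rev]
      have h1 := Subgroup.mem_centralizer_iff.1 hcE δ hδ
      have h2 := hAc δ hδ _ (hcomm c k)
      rw [commutatorElement_def] at h2
      calc c * (δ * k) * c⁻¹ * (k⁻¹ * δ⁻¹) = (c * δ) * k * c⁻¹ * k⁻¹ * δ⁻¹ := by group
        _ = δ * (c * k * c⁻¹ * k⁻¹) * δ⁻¹ := by rw [← h1]; group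
        _ = _ := by rw [h2, mul_inv_cancel_right]
    have := mul_mem hα hcA
    rwa [hc, mul_inv_cancel_left] at this
  refine hfP.1 (hEA (honeall (f n) (f y) ⟨y, hy, rfl⟩ hy1 ?_))
  rw [← commutatorElement_eq_one_iff_mul_comm, ← map_commutatorElement, hfz]
  exact hn

/-- For `|P : K| > 2` the index of `P` is `|P : K| - 1`. -/
theorem index_eq (hD : Data p P K) (hPn : P.Normal) (hKn : K.Normal) (hq : 2 < K.relIndex P) :
    P.index = K.relIndex P - 1 := by
  classical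
  set f := QuotientGroup.mk' K with hf
  have hfs : Function.Surjective f := QuotientGroup.mk'_surjective K
  have hfz : ∀ {x : Γ}, f x = 1 ↔ x ∈ K := fun {x} => QuotientGroup.eq_one_iff x
  obtain ⟨y, hy, hyK⟩ := SetLike.not_le_iff_exists.1 hD.ne
  have hcen : Subgroup.centralizer ({f y} : Set (Γ ⧸ K)) = P.map f := by
    ext c
    obtain ⟨n, rfl⟩ := hfs c
    rw [Subgroup.mem_centralizer_singleton_iff, ← commutatorElement_eq_one_iff_mul_comm, ← map_commutatorElement,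
      hfz]
    constructor
    · exact fun h => ⟨n, centralizes_mod hD hPn hKn hq hy hyK h, rfl⟩
    · rintro ⟨m, hm, e⟩
      rw [← hfz, map_commutatorElement, ← e, ← map_commutatorElement, hfz]
      exact hD.pcomm m hm y hy
  have h1 : Nat.card {z : Γ ⧸ K // IsConj (f y) z} = (P.map f : Set (Γ ⧸ K)).ncard - 1 := by
    rw [← Set.ncard_diff_singleton_of_mem (one_mem (P.map f)), ← Nat.card_coe_set_eq]
    refine Nat.card_congr (Equiv.subtypeEquivRight fun z => ⟨fun h => ?_, fun h => ?_⟩)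
    · obtain ⟨c, rfl⟩ := isConj_iff.1 h
      refine ⟨(hPn.map f hfs).conj_mem _ ⟨y, hy, rfl⟩ c, fun h1 => hyK (hfz.1 ?_)⟩
      exact conj_eq_one_iff.1 h1
    · obtain ⟨⟨b, hb, rfl⟩, hb1⟩ := h
      exact f.map_isConj (hD.conj y hy hyK b hb fun h => hb1 (hfz.2 h))
  have h2 : (P.map f : Set (Γ ⧸ K)).ncard = K.relIndex P := by
    rw [← Nat.card_coe_set_eq]
    change Nat.card (P.map f) = _
    rw [← Subgroup.relIndex_bot_left, ← Subgroup.map_eq_bot_iff K |>.2 (by rw [QuotientGroup.ker_mk']),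
      Subgroup.relIndex_map_map, QuotientGroup.ker_mk', sup_idem, sup_of_le_left hD.le]
  rw [CfsgLib.CharBasics.card_conjClass, hcen,
    Subgroup.index_map_eq P hfs (by rw [QuotientGroup.ker_mk']; exact hD.le), h2] at h1
  exact h1

/-- For `|P : K| > 2` the centralizer of an element of `P ∖ K` has order `|P : K|`. -/
theorem card_centralizer_eq (hD : Data p P K) (hPn : P.Normal) (hKn : K.Normal) (hq : 2 < K.relIndex P)
    {y : Γ} (hy : y ∈ P) (hyK : y ∉ K) : Nat.card (Subgroup.centralizer ({y} : Set Γ)) = K.relIndex P := by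
  have h := card_centralizer hD hPn hKn hy hyK
  rw [← P.card_mul_index, index_eq hD hPn hKn hq, ← card_mul_rel hD.le] at h
  have hpos : 0 < (K.relIndex P - 1) * Nat.card K := Nat.mul_pos (by omega) Nat.card_pos
  refine Nat.eq_of_mul_eq_mul_right hpos (h.trans ?_)
  ring

/-- The commutator map to `K` is surjective. -/
theorem le_commutator (hD : Data p P K) (hPn : P.Normal) (hKn : K.Normal) (hq : 2 < K.relIndex P) :
    K ≤ ⁅P, P⁆ := by
  classical
  obtain ⟨y, hy, hyK⟩ := SetLike.not_le_iff_exists.1 hD.ne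
  set C := Subgroup.centralizer ({y} : Set Γ) with hC
  let F : P → K := fun x => ⟨⁅(x : Γ), y⁆, hD.pcomm x x.2 y hy⟩
  have hF : ∀ a b : P, F a = F b → (a : Γ)⁻¹ * b ∈ C := by
    intro a b e
    have e' : (a : Γ) * y * (a : Γ)⁻¹ * y⁻¹ = (b : Γ) * y * (b : Γ)⁻¹ * y⁻¹ := congrArg Subtype.val e
    have e'' := mul_right_cancel e'
    rw [hC, Subgroup.mem_centralizer_singleton_iff]
    calc (a : Γ)⁻¹ * b * y = (a : Γ)⁻¹ * ((b : Γ) * y * (b : Γ)⁻¹) * b := by group
      _ = y * ((a : Γ)⁻¹ * b) := by rw [← e'']; group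
  let g : P → Set.range F × C := fun x => (Set.rangeFactorization F x,
    ⟨((Set.rangeFactorization F x).2.choose : Γ)⁻¹ * x, hF _ _ (Set.rangeFactorization F x).2.choose_spec⟩)
  have hg : Function.Injective g := by
    intro a b e
    have e1 : Set.rangeFactorization F a = Set.rangeFactorization F b := congrArg Prod.fst e
    have e2 := congrArg (fun z => ((z.2 : C) : Γ)) e
    simp only [g] at e2
    rw [e1] at e2
    exact Subtype.ext (mul_left_cancel e2)
  have h1 : Nat.card P ≤ Nat.card (Set.range F) * K.relIndex P := by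
    refine (Nat.card_le_card_of_injective g hg).trans (le_of_eq ?_)
    rw [Nat.card_prod, hC, card_centralizer_eq hD hPn hKn hq hy hyK]
  rw [← card_mul_rel hD.le] at h1
  have h2 : Set.range F = Set.univ := by
    refine Set.eq_of_subset_of_ncard_le (Set.subset_univ _) ?_
    rw [Set.ncard_univ, ← Nat.card_coe_set_eq]
    exact Nat.le_of_mul_le_mul_right h1 (by omega)
  intro k hk
  obtain ⟨x, hx⟩ := h2.ge (Set.mem_univ (⟨k, hk⟩ : K))
  rw [← show ⁅(x : Γ), y⁆ = k from congrArg Subtype.val hx]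
  exact Subgroup.commutator_mem_commutator x.2 hy

end CfsgLib.OneClassDerived
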