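import Mathlib
import Cfsg.Agent.OneClassDerived.Core

/-!
When `|P : K| > 2`, the subgroup `K` is central in `P`, and some element of `P ∖ K` has order `p` or dividing four.
-/

set_option autoImplicit false
set_option linter.unusedSectionVars false
set_option linter.style.haveILetI false

open scoped commutatorElement

namespace CfsgLib.OneClassDerived

variable {Γ : Type*} [Group Γ] [Finite Γ] {p : ℕ} {P K : Subgroup Γ}

/-- The arithmetic of two complementary semiregular actions. -/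
theorem le_of_dvd_sub_one {p d i f s₁ s₂ : ℕ} (hp : 2 ≤ p) (hd : 0 < d) (hdf : d < f) (hi : 0 < i)
    (hs : s₁ * s₂ = p ^ f - 1) (h1 : s₁ ∣ p ^ d - 1) (h2 : s₂ ∣ p ^ i - 1) : f ≤ i := by
  by_contra hlt
  push Not at hlt
  have key : ∀ e, 0 < e → e < f → ∀ s, s ∣ p ^ e - 1 → s ∣ p ^ f - 1 → s ≤ p ^ (f / 2) - 1 := by
    intro e he hef s hse hsf
    have h3 : s ∣ p ^ Nat.gcd e f - 1 := by
      rw [← Nat.pow_sub_one_gcd_pow_sub_one]
      exact Nat.dvd_gcd hse hsf
    have hgd : Nat.gcd e f ∣ f := Nat.gcd_dvd_right e f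
    have hgle : Nat.gcd e f ≤ e := Nat.le_of_dvd he (Nat.gcd_dvd_left e f)
    obtain ⟨c, hc⟩ := hgd
    have hgpos : 0 < Nat.gcd e f := Nat.gcd_pos_of_pos_left f he
    have hg2 : Nat.gcd e f ≤ f / 2 := by
      have h2c : 2 ≤ c := by
        by_contra h
        interval_cases c <;> omega
      have := Nat.mul_le_mul_left (Nat.gcd e f) h2c
      omega
    have h4 : 2 ≤ p ^ Nat.gcd e f := le_trans hp (Nat.le_self_pow hgpos.ne' p)
    refine (Nat.le_of_dvd (by omega) h3).trans (Nat.sub_le_sub_right (Nat.pow_le_pow_right (by omega) hg2) 1)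
  have hA := key d hd hdf s₁ h1 (hs ▸ dvd_mul_right s₁ s₂)
  have hB := key i hi hlt s₂ h2 (hs ▸ dvd_mul_left s₂ s₁)
  have hx : 2 ≤ p ^ (f / 2) := le_trans hp (Nat.le_self_pow (by omega) p)
  have hxx : p ^ (f / 2) * p ^ (f / 2) ≤ p ^ f := by
    rw [← pow_add]; exact Nat.pow_le_pow_right (by omega) (by omega)
  have hAB := Nat.mul_le_mul hA hB
  rw [hs] at hAB
  obtain ⟨x, hx'⟩ : ∃ x, p ^ (f / 2) = x + 1 := ⟨p ^ (f / 2) - 1, by omega⟩
  rw [hx', Nat.add_sub_cancel] at hAB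
  rw [hx'] at hxx hx
  have : (x + 1) * (x + 1) = x * x + 2 * x + 1 := by ring
  omega

/-- The commutator of `K` and `P` cannot be a minimal normal subgroup. -/
theorem no_class_three [hp : Fact p.Prime] (hD : Data p P K) (hPn : P.Normal) (hKn : K.Normal)
    (hq : 2 < K.relIndex P) (hR1 : ⁅K, P⁆ ≠ ⊥)
    (hmin : ∀ N : Subgroup Γ, N.Normal → N ≤ ⁅K, P⁆ → N = ⊥ ∨ N = ⁅K, P⁆) : False := by
  classical
  haveI := hPn
  haveI := hKn
  set R := ⁅K, P⁆ with hRdef
  haveI hRn : R.Normal := inferInstance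
  have hRK : R ≤ K := Subgroup.commutator_le_left K P
  have hRP : R ≤ P := hRK.trans hD.le
  have hPP : ⁅P, P⁆ = K := le_antisymm (Subgroup.commutator_le.2 hD.pcomm) (le_commutator hD hPn hKn hq)
  -- `R` is central in `P`
  have hRc : ∀ r ∈ R, ∀ x ∈ P, x * r = r * x := by
    obtain ⟨z, hz, hz1, hzc⟩ := exists_fixed hD.pP R (hD.pP.to_le hRP) hR1
    rcases hmin (R ⊓ Subgroup.centralizer (P : Set Γ)) inferInstance inf_le_left with h | h
    · exact absurd (Subgroup.mem_bot.1 (h.le ⟨hz, Subgroup.mem_centralizer_iff.2 hzc⟩)) hz1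
    · exact fun r hr x hx => Subgroup.mem_centralizer_iff.1 (h.ge hr).2 x hx
  have hRexp : ∀ r ∈ R, r ^ p = 1 := by
    let M : Subgroup Γ :=
      { carrier := {r | r ∈ R ∧ r ^ p = 1}
        one_mem' := ⟨one_mem R, one_pow p⟩
        mul_mem' := fun {a b} ha hb => ⟨mul_mem ha.1 hb.1, by
          rw [Commute.mul_pow (show Commute a b from (hRc b hb.1 a (hRP ha.1))), ha.2, hb.2, one_mul]⟩
        inv_mem' := fun {a} ha => ⟨inv_mem ha.1, by rw [inv_pow, ha.2, inv_one]⟩ }
    rcases hmin M ⟨fun a ha g => ⟨hRn.conj_mem a ha.1 g, by rw [conj_pow, ha.2, mul_one, mul_inv_cancel]⟩⟩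
      (fun a ha => ha.1) with h | h
    · exfalso
      have hRp : IsPGroup p R := hD.pP.to_le hRP
      obtain ⟨n, hn⟩ := IsPGroup.iff_card.1 hRp
      rcases Nat.eq_zero_or_pos n with rfl | hn0
      · exact hR1 (R.eq_bot_of_card_eq (by simpa using hn))
      obtain ⟨x, hx⟩ := exists_prime_orderOf_dvd_card' (G := R) p (hn ▸ dvd_pow_self p hn0.ne')
      have hmem : (x : Γ) ∈ M := ⟨x.2, by rw [← SubgroupClass.coe_pow, ← hx, pow_orderOf_eq_one]; rfl⟩
      rw [h, Subgroup.mem_bot] at hmem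
      exact hp.out.ne_one (by rw [← hx, orderOf_eq_one_iff]; exact Subtype.ext hmem)
    · exact fun r hr => (h.ge hr).2
  obtain ⟨f, hf⟩ : ∃ f, K.relIndex P = p ^ f := by
    obtain ⟨n, hn⟩ := IsPGroup.iff_card.1 hD.pP
    obtain ⟨f, -, hf⟩ := (Nat.dvd_prime_pow hp.out).1 (show K.relIndex P ∣ p ^ n from
      hn ▸ Dvd.intro_left _ (card_mul_rel hD.le))
    exact ⟨f, hf⟩
  obtain ⟨y, hy, hyK⟩ := SetLike.not_le_iff_exists.1 hD.ne
  set C := Subgroup.centralizer ({y} : Set Γ) with hCdef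
  have hCcard : Nat.card C = K.relIndex P := card_centralizer_eq hD hPn hKn hq hy hyK
  have hRC : R ≤ C := fun r hr => Subgroup.mem_centralizer_singleton_iff.2 (hRc r hr y hy).symm
  have hyC : y ∈ C := Subgroup.mem_centralizer_singleton_iff.2 rfl
  obtain ⟨d, hd⟩ := IsPGroup.iff_card.1 (hD.pP.to_le hRP)
  have hd0 : 0 < d := Nat.pos_of_ne_zero fun e => hR1 (R.eq_bot_of_card_eq (by rw [hd, e, pow_zero]))
  have hdf : d < f := by
    have h1 : Nat.card R < Nat.card C := by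
      refine lt_of_le_of_ne (Subgroup.card_le_of_le hRC) fun e => hyK ?_
      exact hRK ((Subgroup.eq_of_le_of_card_ge hRC e.ge).ge hyC)
    rw [hd, hCcard, hf] at h1
    exact (Nat.pow_lt_pow_iff_right hp.out.one_lt).1 h1
  -- the action on `R`
  set Nz := Subgroup.centralizer (R : Set Γ) with hNz
  have hPNz : P ≤ Nz := fun x hx => Subgroup.mem_centralizer_iff.2 fun r hr => (hRc r hr x hx).symm
  have hs1 : Nz.index ∣ p ^ d - 1 := by
    have hc : ((R : Set Γ) \ {1}).ncard = p ^ d - 1 := by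
      rw [Set.ncard_sdiff_singleton_of_mem (one_mem R), ← Nat.card_coe_set_eq]
      change Nat.card R - 1 = _
      rw [hd]
    rw [← hc]
    refine index_dvd_ncard (MonoidHom.id Γ) ((R : Set Γ) \ {1}) (fun m x hx => ⟨hRn.conj_mem x hx.1 m, fun h => hx.2 ?_⟩) Nz ?_
    · exact conj_eq_one_iff.1 h
    intro r hr m
    constructor
    · intro hm
      have hm' : m * r = r * m := mul_inv_eq_iff_eq_mul.1 hm
      set M := R ⊓ Subgroup.centralizer ({m} : Set Γ) with hM
      have hMn : M.Normal := ⟨fun a ha g => ⟨hRn.conj_mem a ha.1 g, by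
        have hα : m⁻¹ * (g⁻¹ * m * g) ∈ P := by
          have := hD.comm m⁻¹ g⁻¹
          rwa [commutatorElement_def, inv_inv, inv_inv, show m⁻¹ * g⁻¹ * m * g = m⁻¹ * (g⁻¹ * m * g) by group] at this
        have ham : a * m = m * a := Subgroup.mem_centralizer_singleton_iff.1 ha.2
        have h1 : g⁻¹ * m * g * a = a * (g⁻¹ * m * g) := by
          calc g⁻¹ * m * g * a = m * (m⁻¹ * (g⁻¹ * m * g) * a) := by group
            _ = m * (a * (m⁻¹ * (g⁻¹ * m * g))) := by rw [hRc a ha.1 _ hα]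
            _ = m * a * (m⁻¹ * (g⁻¹ * m * g)) := by group
            _ = _ := by rw [← ham]; group
        refine Subgroup.mem_centralizer_singleton_iff.2 ?_
        calc g * a * g⁻¹ * m = g * (a * (g⁻¹ * m * g)) * g⁻¹ := by group
          _ = g * (g⁻¹ * m * g * a) * g⁻¹ := by rw [h1]
          _ = m * (g * a * g⁻¹) := by group⟩⟩
      rcases hmin M hMn inf_le_left with h | h
      · exact absurd (Subgroup.mem_bot.1 (h.le ⟨hr.1, Subgroup.mem_centralizer_singleton_iff.2 hm'.symm⟩)) hr.2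
      · exact Subgroup.mem_centralizer_iff.2 fun a ha => Subgroup.mem_centralizer_singleton_iff.1 (h.ge ha).2
    · exact fun hm => mul_inv_eq_iff_eq_mul.2 (Subgroup.mem_centralizer_iff.1 hm r hr.1).symm
  -- the elements of `K` modulo those central in `P`
  set Z := K ⊓ Subgroup.centralizer (P : Set Γ) with hZ
  haveI hZn : Z.Normal := inferInstance
  have hRZ : R ≤ Z := fun r hr => ⟨hRK hr, Subgroup.mem_centralizer_iff.2 (hRc r hr)⟩
  have hKK : ∀ k ∈ K, ∀ l ∈ K, k * l = l * k := by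
    have h1 : ⁅⁅K, P⁆, P⁆ = ⊥ := by
      rw [Subgroup.commutator_eq_bot_iff_le_centralizer]
      exact fun r hr => Subgroup.mem_centralizer_iff.2 fun x hx => hRc r hr x hx
    have h2 : ⁅⁅P, K⁆, P⁆ = ⊥ := by rwa [Subgroup.commutator_comm P K]
    have h3 := Subgroup.commutator_commutator_eq_bot_of_rotate h2 h1
    rw [hPP, Subgroup.commutator_eq_bot_iff_le_centralizer] at h3
    exact fun k hk l hl => (Subgroup.mem_centralizer_iff.1 (h3 hk) l hl).symm
  set π := QuotientGroup.mk' Z with hπ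
  set I := K.map π with hI
  have hIP : IsPGroup p I := (hD.pP.to_le hD.le).map π
  obtain ⟨i, hi⟩ := IsPGroup.iff_card.1 hIP
  have hi0 : 0 < i := Nat.pos_of_ne_zero fun e => hR1 (by
    have h1 : I = ⊥ := I.eq_bot_of_card_eq (by rw [hi, e, pow_zero])
    rw [hRdef, Subgroup.commutator_eq_bot_iff_le_centralizer]
    intro k hk
    have h2 := (Subgroup.map_eq_bot_iff K).1 h1
    rw [hπ, QuotientGroup.ker_mk'] at h2
    exact (h2 hk).2)
  have hs2 : P.relIndex Nz ∣ p ^ i - 1 := by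
    have hc : ((I : Set (Γ ⧸ Z)) \ {1}).ncard = p ^ i - 1 := by
      rw [Set.ncard_sdiff_singleton_of_mem (one_mem I), ← Nat.card_coe_set_eq]
      change Nat.card I - 1 = _
      rw [hi]
    rw [← hc]
    refine index_dvd_ncard (π.comp Nz.subtype) ((I : Set (Γ ⧸ Z)) \ {1})
      (fun m x hx => ⟨(hKn.map π (QuotientGroup.mk'_surjective Z)).conj_mem x hx.1 _, fun h => hx.2 ?_⟩)
      (P.subgroupOf Nz) ?_
    · exact conj_eq_one_iff.1 h
    rintro x ⟨⟨k, hk, rfl⟩, hk1⟩ ⟨n, hn⟩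
    have hkZ : k ∉ Z := fun h => hk1 ((QuotientGroup.eq_one_iff k).2 h)
    rw [Subgroup.mem_subgroupOf, MonoidHom.comp_apply, Subgroup.coe_subtype, ← map_mul, ← map_inv, ← map_mul, hπ,
      QuotientGroup.mk'_apply, QuotientGroup.mk'_apply, QuotientGroup.eq]
    constructor
    · intro hz
      by_contra hnP
      apply hkZ
      -- the centralizer of `k` in `P` is everything
      set z := k⁻¹ * (n * k * n⁻¹) with hzdef
      have hzZ : z ∈ Z := by
        have := inv_mem (hZn.conj_mem _ hz (k⁻¹ * (n * k * n⁻¹)))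
        have e : (k⁻¹ * (n * k * n⁻¹) * ((n * k * n⁻¹)⁻¹ * k) * (k⁻¹ * (n * k * n⁻¹))⁻¹)⁻¹ =
            k⁻¹ * (n * k * n⁻¹) := by group
        rwa [e] at this
      set D := P ⊓ Subgroup.centralizer ({k} : Set Γ) with hDdef
      have hKD : K ≤ D := le_inf hD.le fun l hl => Subgroup.mem_centralizer_singleton_iff.2 (hKK l hl k hk)
      have hdiff : ∀ x ∈ P, x⁻¹ * (n * x * n⁻¹) ∈ D := by
        intro x hx
        have hx' : n * x * n⁻¹ ∈ P := hPn.conj_mem x hx n
        refine ⟨Subgroup.mul_mem _ (Subgroup.inv_mem _ hx) hx', Subgroup.mem_centralizer_singleton_iff.2 ?_⟩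
        have hr : ⁅k, x⁆ ∈ R := Subgroup.commutator_mem_commutator hk hx
        have hnr : n * ⁅k, x⁆ * n⁻¹ = ⁅k, x⁆ := by
          rw [← Subgroup.mem_centralizer_iff.1 hn _ hr, mul_inv_cancel_right]
        have hzx : z * (n * x * n⁻¹) = n * x * n⁻¹ * z :=
          (Subgroup.mem_centralizer_iff.1 hzZ.2 _ hx').symm
        have hnk : n * k * n⁻¹ = k * z := by rw [hzdef]; group
        have h2 : ⁅k, n * x * n⁻¹⁆ = ⁅k, x⁆ := by
          conv_rhs => rw [← hnr, ← MulAut.conj_apply, map_commutatorElement, MulAut.conj_apply, MulAut.conj_apply, hnk]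
          simp only [commutatorElement_def]
          calc k * (n * x * n⁻¹) * k⁻¹ * (n * x * n⁻¹)⁻¹
              = k * (n * x * n⁻¹ * z) * z⁻¹ * k⁻¹ * (n * x * n⁻¹)⁻¹ := by group
            _ = k * (z * (n * x * n⁻¹)) * z⁻¹ * k⁻¹ * (n * x * n⁻¹)⁻¹ := by rw [hzx]
            _ = _ := by group
        simp only [commutatorElement_def] at h2
        have h3 : k * x * k⁻¹ * x⁻¹ * (n * x * n⁻¹) = k * (n * x * n⁻¹) * k⁻¹ := by
          rw [← h2]; group
        have h4 : x * k⁻¹ * x⁻¹ * (n * x * n⁻¹) = n * x * n⁻¹ * k⁻¹ := by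
          refine mul_left_cancel (a := k) ?_
          calc k * (x * k⁻¹ * x⁻¹ * (n * x * n⁻¹)) = k * x * k⁻¹ * x⁻¹ * (n * x * n⁻¹) := by group
            _ = _ := by rw [h3]; group
        calc x⁻¹ * (n * x * n⁻¹) * k = k * x⁻¹ * (x * k⁻¹ * x⁻¹ * (n * x * n⁻¹)) * k := by group
          _ = k * (x⁻¹ * (n * x * n⁻¹)) := by rw [h4]; group
      -- the map `x ↦ x⁻¹ x^n` is onto modulo `K`
      let φ : P → P ⧸ K.subgroupOf P := fun x =>
        QuotientGroup.mk ⟨(x : Γ)⁻¹ * (n * x * n⁻¹), mul_mem (inv_mem x.2) (hPn.conj_mem x x.2 n)⟩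
      have hφ : ∀ a b : P, φ a = φ b → (a : Γ)⁻¹ * b ∈ K := by
        intro a b e
        by_contra hab
        refine hnP (centralizes_mod hD hPn hKn hq (mul_mem (inv_mem a.2) b.2) hab ?_)
        have e' : ((a : Γ)⁻¹ * (n * a * n⁻¹))⁻¹ * ((b : Γ)⁻¹ * (n * b * n⁻¹)) ∈ K :=
          Subgroup.mem_subgroupOf.1 (QuotientGroup.eq.1 e)
        set u := (n * (a : Γ) * n⁻¹) with hu
        set v := (n * (b : Γ) * n⁻¹) with hv
        have huP : u ∈ P := hPn.conj_mem a a.2 n
        have hvP : v ∈ P := hPn.conj_mem b b.2 n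
        have e'' : u⁻¹ * a * (b : Γ)⁻¹ * v ∈ K := by
          rwa [mul_inv_rev, inv_inv, ← mul_assoc] at e'
        show ⁅n, (a : Γ)⁻¹ * b⁆ ∈ K
        have : ⁅n, (a : Γ)⁻¹ * b⁆ = u⁻¹ * v * ((b : Γ)⁻¹ * a) := by
          rw [hu, hv, commutatorElement_def]; group
        rw [this]
        have h5 := hD.pcomm _ (mul_mem a.2 (inv_mem b.2)) _ hvP
        have h6 := hD.pcomm _ (inv_mem b.2) _ a.2
        rw [show u⁻¹ * v * ((b : Γ)⁻¹ * a) =
          (u⁻¹ * (⁅(a : Γ) * (b : Γ)⁻¹, v⁆)⁻¹ * u⁻¹⁻¹) * (u⁻¹ * a * (b : Γ)⁻¹ * v) *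
            ((((b : Γ)⁻¹ * a) )⁻¹ * (⁅(b : Γ)⁻¹, (a : Γ)⁆) * ((b : Γ)⁻¹ * a)⁻¹⁻¹) by
          simp only [commutatorElement_def]; group]
        exact mul_mem (mul_mem (hKn.conj_mem _ (inv_mem h5) _) e'') (hKn.conj_mem _ h6 _)
      have hφs : Function.Surjective fun q : P ⧸ K.subgroupOf P => φ q.out := by
        refine Finite.injective_iff_surjective.1 fun a b e => ?_
        have h := hφ _ _ e
        rw [← QuotientGroup.out_eq' a, ← QuotientGroup.out_eq' b, QuotientGroup.eq]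
        exact Subgroup.mem_subgroupOf.2 h
      refine ⟨hk, Subgroup.mem_centralizer_iff.2 fun x hx => ?_⟩
      have hxD : x ∈ D := by
        obtain ⟨q, hq'⟩ := hφs ((⟨x, hx⟩ : P) : P ⧸ K.subgroupOf P)
        have h := Subgroup.mem_subgroupOf.1 (QuotientGroup.eq.1 hq')
        have h1 := mul_mem (hdiff _ q.out.2) (hKD h)
        simpa [mul_assoc] using h1
      exact Subgroup.mem_centralizer_singleton_iff.1 hxD.2
    · intro hnP
      have h1 := hRZ (Subgroup.commutator_mem_commutator hk hnP)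
      have h2 := hZn.conj_mem _ h1 k⁻¹
      have e : k⁻¹ * ⁅k, n⁆ * k⁻¹⁻¹ = n * k⁻¹ * n⁻¹ * k := by simp only [commutatorElement_def]; group
      rw [e] at h2
      rwa [show (n * k * n⁻¹)⁻¹ * k = n * k⁻¹ * n⁻¹ * k by group]
  have hprod : Nz.index * P.relIndex Nz = p ^ f - 1 := by
    rw [mul_comm, Subgroup.relIndex_mul_index hPNz, index_eq hD hPn hKn hq, hf]
  have hfi := le_of_dvd_sub_one hp.out.two_le hd0 hdf hi0 hprod hs1 hs2
  -- `K` is too large
  have hKcard : p ^ d * p ^ f ≤ Nat.card K := by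
    have h1 : Nat.card Z * Nat.card I = Nat.card K := by
      rw [hI, ← card_mul_rel (inf_le_left : Z ≤ K)]
      congr 1
      rw [← Subgroup.relIndex_bot_left, ← (Subgroup.map_eq_bot_iff (f := π) Z).2 (by rw [hπ, QuotientGroup.ker_mk']),
        Subgroup.relIndex_map_map, hπ, QuotientGroup.ker_mk', sup_idem, sup_of_le_left (inf_le_left : Z ≤ K)]
    rw [← h1, hi, ← hd]
    exact Nat.mul_le_mul (Subgroup.card_le_of_le hRZ) (Nat.pow_le_pow_right hp.out.pos hfi)
  have hlt : Nat.card ↥(K ⊓ C) < p ^ f := by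
    rw [← hf, ← hCcard]
    refine lt_of_le_of_ne (Subgroup.card_le_of_le inf_le_right) fun e => hyK ?_
    exact ((Subgroup.eq_of_le_of_card_ge inf_le_right e.ge).ge hyC).1
  have hle : Nat.card K ≤ Nat.card R * Nat.card ↥(K ⊓ C) := by
    let F : K → R := fun k => ⟨⁅(k : Γ), y⁆, Subgroup.commutator_mem_commutator k.2 hy⟩
    have hF : ∀ a b : K, F a = F b → (a : Γ)⁻¹ * b ∈ K ⊓ C := by
      intro a b e
      have e' : (a : Γ) * y * (a : Γ)⁻¹ * y⁻¹ = (b : Γ) * y * (b : Γ)⁻¹ * y⁻¹ := congrArg Subtype.val e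
      have e'' := mul_right_cancel e'
      refine ⟨Subgroup.mul_mem _ (Subgroup.inv_mem _ a.2) b.2, Subgroup.mem_centralizer_singleton_iff.2 ?_⟩
      calc (a : Γ)⁻¹ * b * y = (a : Γ)⁻¹ * ((b : Γ) * y * (b : Γ)⁻¹) * b := by group
        _ = y * ((a : Γ)⁻¹ * b) := by rw [← e'']; group
    let g : K → Set.range F × ↥(K ⊓ C) := fun x => (Set.rangeFactorization F x,
      ⟨((Set.rangeFactorization F x).2.choose : Γ)⁻¹ * x, hF _ _ (Set.rangeFactorization F x).2.choose_spec⟩)
    have hg : Function.Injective g := by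
      intro a b e
      have e1 : Set.rangeFactorization F a = Set.rangeFactorization F b := congrArg Prod.fst e
      have e2 := congrArg (fun z => ((z.2 : ↥(K ⊓ C)) : Γ)) e
      simp only [g] at e2
      rw [e1] at e2
      exact Subtype.ext (mul_left_cancel e2)
    refine (Nat.card_le_card_of_injective g hg).trans ?_
    rw [Nat.card_prod]
    exact Nat.mul_le_mul_right _ (Nat.card_le_card_of_injective Subtype.val Subtype.val_injective)
  have hfin := hKcard.trans hle
  rw [hd] at hfin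
  have := Nat.le_of_mul_le_mul_left hfin (Nat.pow_pos hp.out.pos)
  omega

/-- For `|P : K| > 2`, the subgroup `K` is central in `P`. -/
theorem commutator_eq_bot [hp : Fact p.Prime] (hD : Data p P K) (hPn : P.Normal) (hKn : K.Normal)
    (hq : 2 < K.relIndex P) : ⁅K, P⁆ = ⊥ := by
  classical
  by_contra hne
  haveI := hPn
  haveI := hKn
  obtain ⟨T, hT⟩ := Set.Finite.exists_maximal (s := {T : Subgroup Γ | T.Normal ∧ T < ⁅K, P⁆}) (Set.toFinite _)
    ⟨⊥, inferInstance, bot_lt_iff_ne_bot.2 hne⟩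
  obtain ⟨hTn, hTR⟩ := hT.prop
  haveI := hTn
  have hTK : T ≤ K := hTR.le.trans (Subgroup.commutator_le_left K P)
  set f := QuotientGroup.mk' T with hf
  have hfs : Function.Surjective f := QuotientGroup.mk'_surjective T
  have hfm : ∀ {x : Γ}, f x ∈ K.map f ↔ x ∈ K := fun {x} => by
    rw [← Subgroup.mem_comap, Subgroup.comap_map_eq, QuotientGroup.ker_mk', sup_of_le_left hTK]
  have hfP : ∀ {x : Γ}, f x ∈ P.map f ↔ x ∈ P := fun {x} => by
    rw [← Subgroup.mem_comap, Subgroup.comap_map_eq, QuotientGroup.ker_mk', sup_of_le_left (hTK.trans hD.le)]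
  have hD' : Data p (P.map f) (K.map f) :=
    { pP := hD.pP.map f
      le := Subgroup.map_mono hD.le
      comm := fun x y => by
        obtain ⟨a, rfl⟩ := hfs x; obtain ⟨b, rfl⟩ := hfs y
        rw [← map_commutatorElement]; exact hfP.2 (hD.comm a b)
      pcomm := by
        rintro _ ⟨a, ha, rfl⟩ _ ⟨b, hb, rfl⟩
        rw [← map_commutatorElement]; exact hfm.2 (hD.pcomm a ha b hb)
      pow := by
        rintro _ ⟨a, ha, rfl⟩
        rw [← map_pow]; exact hfm.2 (hD.pow a ha)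
      ne := fun h => hD.ne fun x hx => hfm.1 (h ⟨x, hx, rfl⟩)
      conj := by
        rintro _ ⟨a, ha, rfl⟩ hak _ ⟨b, hb, rfl⟩ hbk
        exact f.map_isConj (hD.conj a ha (fun h => hak (hfm.2 h)) b hb (fun h => hbk (hfm.2 h)))
      central := fun c hc => by
        obtain ⟨a, rfl⟩ := hfs c
        exact hfP.2 (hD.central a fun x => hfm.1 (by rw [map_commutatorElement]; exact hc (f x)))
      noncomm := by
        obtain ⟨x, y, h⟩ := hD.noncomm
        exact ⟨f x, f y, fun h' => h (hfm.1 (by rwa [map_commutatorElement]))⟩ }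
  have hrel : (K.map f).relIndex (P.map f) = K.relIndex P := by
    rw [Subgroup.relIndex_map_map, QuotientGroup.ker_mk', sup_of_le_left hTK, sup_of_le_left (hTK.trans hD.le)]
  have hRmap : ⁅K.map f, P.map f⁆ = ⁅K, P⁆.map f := (Subgroup.map_commutator _ _ f).symm
  refine no_class_three hD' (hPn.map f hfs) (hKn.map f hfs) (hrel.symm ▸ hq) ?_ ?_
  · rw [hRmap, Ne, Subgroup.map_eq_bot_iff, QuotientGroup.ker_mk']
    exact hTR.not_ge
  · intro N hN hNle
    rw [hRmap] at hNle ⊢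
    set N' := N.comap f with hN'
    have hTN : T ≤ N' := fun t ht => by
      rw [hN', Subgroup.mem_comap, show f t = 1 from (QuotientGroup.eq_one_iff t).2 ht]; exact one_mem N
    have hN'R : N' ≤ ⁅K, P⁆ := by
      refine (Subgroup.comap_mono hNle).trans (le_of_eq ?_)
      rw [Subgroup.comap_map_eq, QuotientGroup.ker_mk', sup_of_le_left hTR.le]
    have hNmap : N = N'.map f := (Subgroup.map_comap_eq_self_of_surjective hfs N).symm
    rcases eq_or_lt_of_le hN'R with h | h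
    · exact Or.inr (by rw [hNmap, h])
    · left
      have hTeq : N' = T := le_antisymm (hT.2 ⟨hN.comap f, h⟩ hTN) hTN
      rw [hNmap, hTeq, Subgroup.map_eq_bot_iff, QuotientGroup.ker_mk']

/-- For `|P : K| > 2` some element of `P ∖ K` has order dividing `p` or four. -/
theorem exists_small_order [hp : Fact p.Prime] (hD : Data p P K) (hPn : P.Normal) (hKn : K.Normal)
    (hq : 2 < K.relIndex P) : ∃ y ∈ P, y ∉ K ∧ (y ^ p = 1 ∨ y ^ 4 = 1) := by
  classical
  obtain ⟨y, hy, hyK⟩ := SetLike.not_le_iff_exists.1 hD.ne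
  have hKc : ∀ k ∈ K, ∀ x ∈ P, k * x = x * k := by
    have h := Subgroup.commutator_eq_bot_iff_le_centralizer.1 (commutator_eq_bot hD hPn hKn hq)
    exact fun k hk x hx => (Subgroup.mem_centralizer_iff.1 (h hk) x hx).symm
  have hPP : K ≤ ⁅P, P⁆ := le_commutator hD hPn hKn hq
  have hKexp : ∀ k ∈ K, k ^ p = 1 := by
    let M : Subgroup Γ :=
      { carrier := {k | k ∈ K ∧ k ^ p = 1}
        one_mem' := ⟨one_mem K, one_pow p⟩
        mul_mem' := fun {a b} ha hb => ⟨mul_mem ha.1 hb.1, by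
          rw [Commute.mul_pow (show Commute a b from hKc a ha.1 b (hD.le hb.1)), ha.2, hb.2, one_mul]⟩
        inv_mem' := fun {a} ha => ⟨inv_mem ha.1, by rw [inv_pow, ha.2, inv_one]⟩ }
    have hM : ⁅P, P⁆ ≤ M := Subgroup.commutator_le.2 fun a ha b hb => by
      refine ⟨hD.pcomm a ha b hb, ?_⟩
      have hk : ∀ n : ℕ, a ^ n * b * (a ^ n)⁻¹ = ⁅a, b⁆ ^ n * b := by
        intro n
        induction n with
        | zero => simp
        | succ n ih =>
          calc a ^ (n + 1) * b * (a ^ (n + 1))⁻¹ = a * (a ^ n * b * (a ^ n)⁻¹) * a⁻¹ := by rw [pow_succ']; group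
            _ = a * ⁅a, b⁆ ^ n * b * a⁻¹ := by rw [ih]; group
            _ = ⁅a, b⁆ ^ n * a * b * a⁻¹ := by
              rw [← hKc _ (pow_mem (hD.pcomm a ha b hb) n) a ha]
            _ = _ := by rw [pow_succ, commutatorElement_def]; group
      have h1 := hk p
      rw [hKc _ (hD.pow a ha) b hb, mul_inv_cancel_right] at h1
      exact mul_eq_right.1 h1.symm
    exact fun k hk => (hM (hPP hk)).2
  by_cases hp2 : p = 2
  · refine ⟨y, hy, hyK, Or.inr ?_⟩
    rw [show 4 = p * p by rw [hp2], pow_mul]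
    exact hKexp _ (hD.pow y hy)
  by_contra hno
  push Not at hno
  set C := Subgroup.centralizer ({y} : Set Γ) with hC
  have hlt : Nat.card K < K.relIndex P := by
    rw [← card_centralizer_eq hD hPn hKn hq hy hyK]
    have hKC : K ≤ C := fun k hk => Subgroup.mem_centralizer_singleton_iff.2 (hKc k hk y hy)
    refine lt_of_le_of_ne (Subgroup.card_le_of_le hKC) fun e => hyK ?_
    exact (Subgroup.eq_of_le_of_card_ge hKC e.ge).ge (Subgroup.mem_centralizer_singleton_iff.2 rfl)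
  -- the power map
  have hmul : ∀ a ∈ P, ∀ b ∈ P, (a * b) ^ p = a ^ p * b ^ p := by
    intro a ha b hb
    have h3 : ∀ x y z : P, ⁅x, ⁅y, z⁆⁆ ∈ Subgroup.center P := fun x y z => by
      have : ⁅x, ⁅y, z⁆⁆ = 1 := Subtype.ext (commutatorElement_eq_one_iff_mul_comm.2
        (hKc _ (hD.pcomm _ y.2 _ z.2) _ x.2).symm)
      rw [this]; exact one_mem _
    have h := congrArg Subtype.val (CfsgLib.PLocalBasics.mul_pow_class_three h3 ⟨a, ha⟩ ⟨b, hb⟩ p)
    have hk : ⁅b, a⁆ ∈ K := hD.pcomm b hb a ha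
    have hz1 : (⁅a, ⁅b, a⁆⁆ : Γ) = 1 := commutatorElement_eq_one_iff_mul_comm.2 (hKc _ hk a ha).symm
    have hz2 : (⁅b, ⁅b, a⁆⁆ : Γ) = 1 := commutatorElement_eq_one_iff_mul_comm.2 (hKc _ hk b hb).symm
    have hdvd : p ∣ p.choose 2 := hp.out.dvd_choose_self two_ne_zero (by have := hp.out.two_le; omega)
    obtain ⟨c, hc⟩ := hdvd
    change (a * b) ^ p = ⁅b, a⁆ ^ p.choose 2 * ⁅a, ⁅b, a⁆⁆ ^ _ * ⁅b, ⁅b, a⁆⁆ ^ _ * a ^ p * b ^ p at h
    rw [h, hz1, hz2, one_pow, one_pow, hc, pow_mul, hKexp _ hk, one_pow, one_mul, one_mul, one_mul]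
  let F : P ⧸ K.subgroupOf P → K := fun q => ⟨(q.out : Γ) ^ p, hD.pow _ q.out.2⟩
  have hF : Function.Injective F := by
    intro a b e
    have e' : (a.out : Γ) ^ p = (b.out : Γ) ^ p := congrArg Subtype.val e
    rw [← QuotientGroup.out_eq' a, ← QuotientGroup.out_eq' b, QuotientGroup.eq, Subgroup.mem_subgroupOf]
    by_contra h
    refine (hno _ (mul_mem (inv_mem a.out.2) b.out.2) h).1 ?_
    rw [hmul _ (inv_mem a.out.2) _ b.out.2, inv_pow, e', inv_mul_cancel]
  have := Nat.card_le_card_of_injective F hF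
  rw [← Subgroup.index_eq_card] at this
  exact absurd this (not_le.2 hlt)

end CfsgLib.OneClassDerived
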